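import Cfsg.Agent.H354.KGL.T1
import Cfsg.Agent.H644.KGV.Goals
import Cfsg.Agent.H642.FongRed
import Cfsg.Agent.H669.OverCount
import Cfsg.Agent.H583.SecRank
import Cfsg.Agent.Lib.PSolvable
import Cfsg.Agent.H450.FratMod
import Cfsg.Agent.H442.HallGen
import Cfsg.Prelude.Def_CaseTheorems
set_option linter.all false

-- part: H475/KGV/Glue
section
/-!
# The linear bound from the k(GV) theorem

The proof of `bd_of_card_le` is helper354's proof of `H354.KGL.T1.rv_bd`.
-/

set_option autoImplicit false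

namespace Cfsg.Agent.H475.KGV

open Cfsg.Agent.H475.KGL Subgroup Cfsg.Agent.H354.KGL.T1

universe u v

section

variable {p : ℕ} [Fact p.Prime] {V : Type v} [AddCommGroup V] [Module (ZMod p) V] [Finite V]
  [Nontrivial V]

/-- The linear bound from `k(VG) ≤ |V|`. -/
theorem bd_of_card_le (G : Subgroup (V ≃ₗ[ZMod p] V)) (hG : ¬ p ∣ Nat.card G)
    (key : Nat.card (ConjClasses (SD G)) ≤ Nat.card V) :
    kc G ≤ Nat.card V - 1 ∧ (kc G = Nat.card V - 1 → Reg G) := by
  classical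
  have : Finite (V ≃ₗ[ZMod p] V) :=
    Finite.of_injective (fun e : V ≃ₗ[ZMod p] V => (e : V → V)) DFunLike.coe_injective
  have : Finite G := inferInstance
  have : Finite (SD G) := Finite.of_injective (fun x : SD G => (x.left, x.right)) (by
    intro x y hxy
    rw [Prod.mk.injEq] at hxy
    exact SemidirectProduct.ext hxy.1 hxy.2)
  have hcop : (Nat.card (VV G)).Coprime (Nat.card (GG G)) := by
    rw [card_VV, card_GG]
    have hp : p.Prime := Fact.out
    have : Module.Finite (ZMod p) V := Module.Finite.of_finite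
    rw [Module.natCard_eq_pow_finrank (K := ZMod p) (V := V), Nat.card_zmod]
    exact Nat.Coprime.pow_left _ ((Nat.Prime.coprime_iff_not_dvd hp).2 hG)
  -- orbit representatives
  let Ω := MulAction.orbitRel.Quotient G V
  have hfin : Finite Ω := Quotient.finite _
  have : Fintype Ω := Fintype.ofFinite Ω
  let rep : Ω → SD G := fun q => ι G (Quotient.out q)
  let S : Finset (SD G) := Finset.univ.image rep
  have hS : ∀ s, s ∈ S ↔ ∃ q : Ω, rep q = s := by
    intro s
    simp [S]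
  have hout : ∀ v : V, ∃ g : G, (g : V ≃ₗ[ZMod p] V) v = Quotient.out (Quotient.mk _ v : Ω) := by
    intro v
    have h1 : (Quotient.mk _ (Quotient.out (Quotient.mk _ v : Ω)) : Ω) = Quotient.mk _ v :=
      Quotient.out_eq _
    have h2 := Quotient.exact h1
    obtain ⟨g, hg⟩ := h2
    exact ⟨g, hg⟩
  have hrep : ∀ v ∈ VV G, ∃! s, s ∈ S ∧ ∃ g ∈ GG G, g * v * g⁻¹ = s := by
    intro x hx
    obtain ⟨v, rfl⟩ := (mem_VV G).1 hx
    obtain ⟨g, hg⟩ := hout v
    refine ⟨rep (Quotient.mk _ v), ⟨(hS _).2 ⟨_, rfl⟩, SemidirectProduct.inr g, ⟨g, rfl⟩, ?_⟩, ?_⟩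
    · rw [conj_ι, hg]
    · rintro y ⟨hy, _, ⟨k, rfl⟩, hk⟩
      obtain ⟨q, rfl⟩ := (hS _).1 hy
      rw [conj_ι] at hk
      have h3 := ι_inj G hk
      have h4 : (Quotient.mk _ v : Ω) = q := by
        rw [← Quotient.out_eq q, ← h3]
        apply Quotient.sound
        exact ⟨k⁻¹, by
          change (((k⁻¹ : G) : V ≃ₗ[ZMod p] V)) ((k : V ≃ₗ[ZMod p] V) v) = v
          rw [← LinearEquiv.mul_apply, ← Subgroup.coe_mul, inv_mul_cancel]
          rfl⟩
      rw [h4]
  have hsum := Cfsg.Agent.S4956.result (VV G) (VV_comm G) (GG G) (isCompl G) hcop S (by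
    intro s hs
    obtain ⟨q, rfl⟩ := (hS s).1 hs
    exact ι_mem G _) hrep
  -- the trivial representative
  have h1S : (1 : SD G) ∈ S := by
    obtain ⟨s, ⟨hs, g, hg, hgs⟩, -⟩ := hrep 1 (one_mem _)
    rw [mul_one, mul_inv_cancel] at hgs
    rw [hgs]
    exact hs
  have hone : kc ↥(GG G ⊓ centralizer ({(1 : SD G)} : Set (SD G))) = kc G := by
    have h1 : GG G ⊓ centralizer ({(1 : SD G)} : Set (SD G)) = GG G := by
      rw [inf_eq_left]
      intro x _
      rw [mem_centralizer_iff]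
      intro y hy
      rw [Set.mem_singleton_iff.1 hy, one_mul, mul_one]
    rw [h1]
    exact (kc_congr (MonoidHom.ofInjective
      (SemidirectProduct.inr_injective : Function.Injective
        (SemidirectProduct.inr : G →* SD G)))).symm
  rw [← Finset.add_sum_erase S _ h1S] at hsum
  change Nat.card (ConjClasses (SD G)) = kc ↥(GG G ⊓ centralizer ({(1 : SD G)} : Set (SD G))) +
    ∑ s ∈ S.erase 1, kc ↥(GG G ⊓ centralizer ({s} : Set (SD G))) at hsum
  rw [hone] at hsum
  -- a nontrivial representative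
  obtain ⟨v0, hv0⟩ := exists_ne (0 : V)
  obtain ⟨s0, ⟨hs0, g0, hg0, hgs0⟩, -⟩ := hrep (ι G v0) (ι_mem G v0)
  have hs0' : s0 ≠ 1 := by
    intro h1
    rw [h1, mul_inv_eq_one, mul_eq_left] at hgs0
    exact hv0 (ι_inj G (hgs0.trans (ι_zero G).symm))
  have hs0S : s0 ∈ S.erase 1 := Finset.mem_erase.2 ⟨hs0', hs0⟩
  have hge : (S.erase 1).card ≤
      ∑ s ∈ S.erase 1, kc ↥(GG G ⊓ centralizer ({s} : Set (SD G))) := by
    have := Finset.card_nsmul_le_sum (S.erase 1)
      (fun s => kc ↥(GG G ⊓ centralizer ({s} : Set (SD G)))) 1 (fun s _ => kc_pos _)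
    simpa using this
  have hc1 : 1 ≤ (S.erase 1).card := Finset.card_pos.2 ⟨s0, hs0S⟩
  refine ⟨by omega, fun heq => ?_⟩
  have hVpos : 0 < Nat.card V := Nat.card_pos
  have hle : ∑ s ∈ S.erase 1, kc ↥(GG G ⊓ centralizer ({s} : Set (SD G))) ≤ 1 := by omega
  have hcard : (S.erase 1).card = 1 := by omega
  obtain ⟨s1, hs1⟩ := Finset.card_eq_one.1 hcard
  have hs01 : s0 = s1 := by
    rw [hs1] at hs0S
    exact Finset.mem_singleton.1 hs0S
  subst hs01
  have htriv : GG G ⊓ centralizer ({s0} : Set (SD G)) = ⊥ := by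
    apply eq_bot_of_kc_eq_one
    rw [hs1, Finset.sum_singleton] at hle
    exact le_antisymm hle (kc_pos _)
  -- every nonzero vector is conjugate to `s0`
  have hconj : ∀ v : V, v ≠ 0 → ∃ g : G, ι G ((g : V ≃ₗ[ZMod p] V) v) = s0 := by
    intro v hv
    obtain ⟨s, ⟨hs, _, ⟨g, rfl⟩, hgs⟩, -⟩ := hrep (ι G v) (ι_mem G v)
    have hs' : s ≠ 1 := by
      intro h1
      rw [h1, mul_inv_eq_one, mul_eq_left] at hgs
      exact hv (ι_inj G (hgs.trans (ι_zero G).symm))
    have h2 : s ∈ S.erase 1 := Finset.mem_erase.2 ⟨hs', hs⟩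
    rw [hs1] at h2
    refine ⟨g, ?_⟩
    rw [← conj_ι, hgs]
    exact Finset.mem_singleton.1 h2
  refine ⟨fun v hv w hw => ?_, fun g hg v hv hgv => ?_⟩
  · obtain ⟨a, ha⟩ := hconj v hv
    obtain ⟨b, hb⟩ := hconj w hw
    refine ⟨(b : V ≃ₗ[ZMod p] V)⁻¹ * a, G.mul_mem (G.inv_mem b.2) a.2, ?_⟩
    have h1 := ι_inj G (ha.trans hb.symm)
    change (b : V ≃ₗ[ZMod p] V).symm ((a : V ≃ₗ[ZMod p] V) v) = w
    rw [LinearEquiv.symm_apply_eq]
    exact h1
  · obtain ⟨a, ha⟩ := hconj v hv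
    have h0 : ((a * ⟨g, hg⟩ * a⁻¹ : G) : V ≃ₗ[ZMod p] V) ((a : V ≃ₗ[ZMod p] V) v) =
        (a : V ≃ₗ[ZMod p] V) v := by
      have h3 : ((a * ⟨g, hg⟩ * a⁻¹ : G) : V ≃ₗ[ZMod p] V) * (a : V ≃ₗ[ZMod p] V) =
          (a : V ≃ₗ[ZMod p] V) * g := by
        rw [Subgroup.coe_mul, Subgroup.coe_mul, Subgroup.coe_inv, inv_mul_cancel_right]
      have h4 := congrArg (fun f : V ≃ₗ[ZMod p] V => f v) h3
      simp only [LinearEquiv.mul_apply] at h4
      rw [h4, hgv]
    have h1 : (SemidirectProduct.inr (a * ⟨g, hg⟩ * a⁻¹) : SD G) ∈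
        GG G ⊓ centralizer ({s0} : Set (SD G)) := by
      rw [← ha]
      exact ⟨⟨_, rfl⟩, comm_of_fix G _ _ h0⟩
    rw [htriv, mem_bot] at h1
    have h2 : a * ⟨g, hg⟩ * a⁻¹ = 1 := SemidirectProduct.inr_injective (h1.trans (map_one _).symm)
    rw [mul_inv_eq_one, mul_eq_left] at h2
    exact congrArg Subtype.val h2


end

/-- The linear bound from the k(GV) theorem. -/
theorem bd_of_main (h : Cfsg.Agent.H644.KGV.MainKGV.{u}) (p : ℕ) [Fact p.Prime] (V : Type u)
    [AddCommGroup V] [Module (ZMod p) V] [Finite V] [Nontrivial V] : Bd p V := by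
  intro G hG
  have : Finite (V ≃ₗ[ZMod p] V) :=
    Finite.of_injective (fun e : V ≃ₗ[ZMod p] V => (e : V → V)) DFunLike.coe_injective
  have : Finite G := inferInstance
  have : Finite (SD G) := Finite.of_injective (fun x : SD G => (x.left, x.right)) (by
    intro x y hxy
    rw [Prod.mk.injEq] at hxy
    exact SemidirectProduct.ext hxy.1 hxy.2)
  refine bd_of_card_le G hG ?_
  have h1 := (h p (SD G) (VV G) (VV_exp G) (by rw [index_VV]; exact hG) (VV_self G)).1
  rwa [card_VV] at h1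

end Cfsg.Agent.H475.KGV
end

-- part: H475/KGV/LRank
section
/-!
# The `p`-regular rank of the characters over an invariant character

`blockRank_over_le` : `θ ∈ Irr(N)` invariant under `G`: the `p`-regular rank of a set of irreducible characters of `G`
over `θ` is at most the number of `p`-regular classes of `G / N`.
-/

set_option autoImplicit false

open Cfsg

namespace Cfsg.Agent.H475.KGV

open Cfsg.Agent Cfsg.Agent.Characters.Core

universe u

theorem pRegularPart_of {G : Type u} [Group G] {p : ℕ} (f : G → ℂ) {g : G} (h : IsPRegular p g) :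
    pRegularPart p f g = f g := if_pos h

theorem pRegularPart_of_not {G : Type u} [Group G] {p : ℕ} (f : G → ℂ) {g : G}
    (h : ¬ IsPRegular p g) : pRegularPart p f g = 0 := if_neg h

theorem isPRegular_conj {G : Type u} [Group G] {p : ℕ} (g h : G) :
    IsPRegular p (h * g * h⁻¹) ↔ IsPRegular p g := by
  unfold IsPRegular
  have := (MulAut.conj h).orderOf_eq g
  rw [MulAut.conj_apply] at this
  rw [this]

theorem blockRank_over_le {G : Type u} [Group G] [Finite G] (p : ℕ) (N : Subgroup G)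
    [hN : N.Normal] [Fintype N] {θ : N → ℂ} (hθ : IsIrrCharacter N θ)
    (hinv : ∀ (g : G) (n : N), θ ⟨g * n * g⁻¹, hN.conj_mem (n : G) n.2 g⟩ = θ n)
    (B : Set (IrrCharacter G))
    (hB : ∀ χ ∈ B, classInner (fun n : N => (χ : G → ℂ) n) θ ≠ 0) :
    blockRank p B ≤
      Nat.card {C : ConjClasses (G ⧸ N) // ∃ g : G ⧸ N, ConjClasses.mk g = C ∧ ¬ p ∣ orderOf g} := by
  classical
  set I := {C : ConjClasses (G ⧸ N) // ∃ g : G ⧸ N, ConjClasses.mk g = C ∧ ¬ p ∣ orderOf g} with hI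
  set S := Submodule.span ℂ ((fun χ : IrrCharacter G => pRegularPart p (χ : G → ℂ)) '' B) with hS
  have hΦ : ∀ x : G, ∃ Φ : G → ℂ, ∀ χ : G → ℂ, IsIrrCharacter G χ →
      classInner (fun n : N => χ n) θ ≠ 0 → ∃ c : ℂ, ∀ y : G, x⁻¹ * y ∈ N → χ y = c * Φ y :=
    fun x => H669.OverCount.exists_coset_function N hθ hinv x
  choose Φ hΦ using hΦ
  -- the properties of the elements of `S`
  have h1 : ∀ f ∈ S, ∀ x : G, ∃ c : ℂ, ∀ y : G, x⁻¹ * y ∈ N → f y = c * pRegularPart p (Φ x) y := by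
    intro f hf x
    refine Submodule.span_induction ?_ ?_ ?_ ?_ hf
    · rintro _ ⟨χ, hχ, rfl⟩
      obtain ⟨c, hc⟩ := hΦ x χ χ.2 (hB χ hχ)
      refine ⟨c, fun y hy => ?_⟩
      change pRegularPart p (χ : G → ℂ) y = _
      by_cases h : IsPRegular p y
      · rw [pRegularPart_of _ h, pRegularPart_of _ h, hc y hy]
      · rw [pRegularPart_of_not _ h, pRegularPart_of_not _ h, mul_zero]
    · exact ⟨0, fun y _ => by rw [zero_mul, Pi.zero_apply]⟩
    · rintro f₁ f₂ _ _ ⟨c₁, h₁⟩ ⟨c₂, h₂⟩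
      exact ⟨c₁ + c₂, fun y hy => by rw [Pi.add_apply, h₁ y hy, h₂ y hy, add_mul]⟩
    · rintro a f₁ _ ⟨c₁, h₁⟩
      exact ⟨a * c₁, fun y hy => by rw [Pi.smul_apply, smul_eq_mul, h₁ y hy, mul_assoc]⟩
  have h2 : ∀ f ∈ S, ∀ g h : G, f (h * g * h⁻¹) = f g := by
    intro f hf g h
    refine Submodule.span_induction ?_ ?_ ?_ ?_ hf
    · rintro _ ⟨χ, hχ, rfl⟩
      change pRegularPart p (χ : G → ℂ) (h * g * h⁻¹) = pRegularPart p (χ : G → ℂ) g
      by_cases hr : IsPRegular p g
      · rw [pRegularPart_of _ hr, pRegularPart_of _ ((isPRegular_conj g h).2 hr)]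
        exact isIrr_isClassFunction χ.2 g h
      · rw [pRegularPart_of_not _ hr, pRegularPart_of_not _ (fun h' => hr ((isPRegular_conj g h).1 h'))]
    · rfl
    · rintro f₁ f₂ _ _ h₁ h₂
      rw [Pi.add_apply, Pi.add_apply, h₁, h₂]
    · rintro a f₁ _ h₁
      rw [Pi.smul_apply, Pi.smul_apply, h₁]
  have h3 : ∀ f ∈ S, ∀ g : G, ¬ IsPRegular p g → f g = 0 := by
    intro f hf g hg
    refine Submodule.span_induction ?_ ?_ ?_ ?_ hf
    · rintro _ ⟨χ, hχ, rfl⟩
      exact pRegularPart_of_not _ hg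
    · rfl
    · rintro f₁ f₂ _ _ h₁ h₂
      rw [Pi.add_apply, h₁, h₂, add_zero]
    · rintro a f₁ _ h₁
      rw [Pi.smul_apply, h₁, smul_zero]
  -- representatives
  have hrep : ∀ C : I, ∃ x : G, ConjClasses.mk (x : G ⧸ N) = C.1 := by
    intro C
    obtain ⟨q, hq⟩ := ConjClasses.mk_surjective C.1
    obtain ⟨x, rfl⟩ := QuotientGroup.mk_surjective q
    exact ⟨x, hq⟩
  choose xc hxc using hrep
  have hgood : ∀ x : G, ∃ y : G, x⁻¹ * y ∈ N ∧ ∀ f ∈ S, f y = 0 → ∀ z : G, x⁻¹ * z ∈ N → f z = 0 := by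
    intro x
    by_cases h0 : ∃ y : G, x⁻¹ * y ∈ N ∧ pRegularPart p (Φ x) y ≠ 0
    · obtain ⟨y, hy, hy0⟩ := h0
      refine ⟨y, hy, fun f hf hfy z hz => ?_⟩
      obtain ⟨c, hc⟩ := h1 f hf x
      rw [hc y hy] at hfy
      rw [hc z hz, (mul_eq_zero.1 hfy).resolve_right hy0, zero_mul]
    · push Not at h0
      refine ⟨x, by rw [inv_mul_cancel]; exact one_mem _, fun f hf _ z hz => ?_⟩
      obtain ⟨c, hc⟩ := h1 f hf x
      rw [hc z hz, h0 z hz, mul_zero]
  choose yc hyc hyc' using hgood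
  let L : S →ₗ[ℂ] (I → ℂ) :=
    { toFun := fun f C => (f : G → ℂ) (yc (xc C))
      map_add' := fun f f' => rfl
      map_smul' := fun a f => rfl }
  have hL : Function.Injective L := by
    rw [← LinearMap.ker_eq_bot, LinearMap.ker_eq_bot']
    intro f hf
    apply Subtype.ext
    funext g
    change (f : G → ℂ) g = 0
    by_cases hg : IsPRegular p g
    · have hC : ∃ q : G ⧸ N, ConjClasses.mk q = ConjClasses.mk (g : G ⧸ N) ∧ ¬ p ∣ orderOf q :=
        ⟨g, rfl, fun h => hg (h.trans (orderOf_map_dvd (QuotientGroup.mk' N) g))⟩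
      set C : I := ⟨ConjClasses.mk (g : G ⧸ N), hC⟩ with hCdef
      have h4 : IsConj (xc C : G ⧸ N) (g : G ⧸ N) := ConjClasses.mk_eq_mk_iff_isConj.1 (hxc C)
      obtain ⟨q, hq⟩ := isConj_iff.1 h4
      obtain ⟨h, rfl⟩ := QuotientGroup.mk_surjective q
      have h5 : (xc C)⁻¹ * (h⁻¹ * g * h) ∈ N := by
        rw [← QuotientGroup.eq]
        rw [QuotientGroup.mk_mul, QuotientGroup.mk_mul, QuotientGroup.mk_inv, ← hq]
        group
      have h6 := hyc' (xc C) f f.2 (congrFun hf C) _ h5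
      have h7 := h2 f f.2 g h⁻¹
      rw [inv_inv] at h7
      rw [← h7, h6]
    · exact h3 f f.2 g hg
  have : Finite (ConjClasses (G ⧸ N)) := inferInstance
  have : Finite I := Subtype.finite
  have : Fintype I := Fintype.ofFinite I
  have h8 := LinearMap.finrank_le_finrank_of_injective hL
  rw [Module.finrank_fintype_fun_eq_card, ← Nat.card_eq_fintype_card] at h8
  exact h8

end Cfsg.Agent.H475.KGV
end

-- part: H475/KGV/S4532Of
section
/-!
# S4532 from S4533
-/

set_option autoImplicit false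

open Cfsg

namespace Cfsg.Agent.H475.KGV

open Cfsg.Agent Cfsg.Agent.Characters.Core

universe u

/-- The statement of S4533 (second part). -/
def PRegBound : Prop := ∀ (X : Type u) [Group X] [Finite X] [Nontrivial X] (p : ℕ) [Fact p.Prime],
  Cfsg.IsPSolvable p X → Cfsg.pPrimeCore p X = ⊥ → ∀ r : ℕ,
  Cfsg.SectionalPRankLE p r ↥(Cfsg.pCore p X) →
  Nat.card {C : ConjClasses X // ∃ g : X, ConjClasses.mk g = C ∧ ¬ p ∣ orderOf g} < p ^ r

theorem s4532_of (h33 : PRegBound.{u}) {G : Type u} [Group G] [Finite G] (p : ℕ) [Fact p.Prime]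
    (hsolv : Cfsg.IsPSolvable p G) (M : Ideal Cfsg.AlgInt) (hM : Cfsg.IsPModular p M)
    (B : Set (Cfsg.IrrCharacter G)) (hB : Cfsg.IsPBlock M B) (D : Subgroup G)
    (hD : Cfsg.IsDefectGroup p M B D) (hD1 : D ≠ ⊥) (r : ℕ)
    (hr : Cfsg.SectionalPRankLE p r D) : Cfsg.blockRank p B < p ^ r := by
  have hp : p.Prime := Fact.out
  obtain ⟨X, _, _, f, N, hN, _, θ, B', P, hf, hNdef, hinv, hB', hmem, ⟨e⟩, hrank⟩ :=
    H642.FongRed.fong_reduction p M hM (Nat.card G) G le_rfl hsolv B hB D hD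
  have hX : IsPSolvable p X := Lib.PSolvable.IsPSolvable_of_injective p hsolv f hf
  have hNp : ¬ p ∣ Nat.card N := by
    rw [hNdef]
    exact hp.coprime_iff_not_dvd.1 (Lib.Cores.pPrimeCore_coprime (G := X) p).symm
  -- the Sylow subgroup embeds in the quotient
  have hinj : ∀ x ∈ (P : Subgroup X), QuotientGroup.mk' N x = 1 → x = 1 := by
    intro x hx h
    have h1 : x ∈ N := (QuotientGroup.eq_one_iff x).1 h
    obtain ⟨k, hk⟩ := (IsPGroup.iff_orderOf.1 P.isPGroup') ⟨x, hx⟩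
    rw [Subgroup.orderOf_mk] at hk
    have h2 : orderOf x ∣ Nat.card N := by
      have := orderOf_dvd_natCard (⟨x, h1⟩ : N)
      rwa [Subgroup.orderOf_mk] at this
    rcases Nat.eq_zero_or_pos k with h0 | h0
    · rw [h0, pow_zero, orderOf_eq_one_iff] at hk
      exact hk
    · exact absurd ((dvd_pow_self p h0.ne').trans (hk ▸ h2)) hNp
  let F : P →* X ⧸ N := (QuotientGroup.mk' N).comp (P : Subgroup X).subtype
  have hF : Function.Injective F := by
    rw [injective_iff_map_eq_one]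
    intro x hx
    exact Subtype.ext (hinj x x.2 hx)
  have hcardX : (Nat.card X).factorization p = (Nat.card (X ⧸ N)).factorization p := by
    rw [Subgroup.card_eq_card_quotient_mul_card_subgroup N,
      Nat.factorization_mul Nat.card_pos.ne' Nat.card_pos.ne', Finsupp.add_apply,
      Nat.factorization_eq_zero_of_not_dvd hNp, add_zero]
  have e' : P ≃* F.range := MonoidHom.ofInjective hF
  have hcr : Nat.card F.range = p ^ (Nat.card (X ⧸ N)).factorization p := by
    rw [← Nat.card_congr e'.toEquiv, ← hcardX]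
    exact P.card_eq_multiplicity
  let Q : Sylow p (X ⧸ N) := Sylow.ofCard F.range hcr
  have hQ : (Q : Subgroup (X ⧸ N)) = F.range := rfl
  -- nontrivial
  have hnt : Nontrivial (X ⧸ N) := by
    by_contra h
    rw [not_nontrivial_iff_subsingleton] at h
    apply hD1
    rw [eq_bot_iff]
    intro d hd
    have h1 : F (e ⟨d, hd⟩) = F 1 := Subsingleton.elim _ _
    have h2 : (⟨d, hd⟩ : D) = 1 := e.injective ((hF h1).trans (map_one e).symm)
    exact congrArg Subtype.val h2
  -- the sectional rank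
  have hcore : pCore p (X ⧸ N) ≤ F.range := Lib.Cores.pCore_le_sylow Q
  have hr1 : SectionalPRankLE p r F.range := H583.SecRank.sectional_of_mulEquiv hr (e.trans e')
  have hr2 : SectionalPRankLE p r (pCore p (X ⧸ N)) :=
    H583.SecRank.sectional_of_injective hr1 (Subgroup.inclusion hcore)
      (Subgroup.inclusion_injective hcore)
  have hcore' : pPrimeCore p (X ⧸ N) = ⊥ := by
    subst hNdef
    exact Lib.Cores.pPrimeCore_quotient_pPrimeCore p
  have h1 := h33 (X ⧸ N) p (PLocal.PSolvable.isPSolvable_quotient hX N) hcore' r hr2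
  refine (hrank.trans ?_).trans_lt h1
  exact blockRank_over_le p N θ.2 hinv B' fun χ hχ => (hmem χ).1 hχ

end Cfsg.Agent.H475.KGV
end

-- part: H415/KGL/F2
section
/-!
# Project KGL (hub helper475), F2: S4533 from the linear theorem (helper415)
-/

set_option autoImplicit false

namespace Cfsg.Agent.H415.KGL.F2

open Cfsg Subgroup Cfsg.Agent.H475.KGL

universe u

theorem kc_le_of_surj {G H : Type*} [Group G] [Finite G] [Group H] (f : G →* H) (hf : Function.Surjective f) :
    kc H ≤ kc G := by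
  have : Finite (ConjClasses G) := inferInstance
  refine Nat.card_le_card_of_surjective (ConjClasses.map f) ?_
  intro c
  obtain ⟨h, rfl⟩ := ConjClasses.exists_rep c
  obtain ⟨g, rfl⟩ := hf h
  exact ⟨ConjClasses.mk g, rfl⟩

/-- the order of an elementary abelian section -/
theorem sec_bound {p r : ℕ} {P : Type*} [Group P] [Finite P] (hr : SectionalPRankLE p r P) {H : Subgroup P}
    {Q : Type*} [Group Q] (f : H →* Q) (hf : Function.Surjective f) (hc : ∀ a b : Q, a * b = b * a)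
    (hp : ∀ a : Q, a ^ p = 1) : Nat.card Q ≤ p ^ r := by
  let e : H ⧸ f.ker ≃* Q := QuotientGroup.quotientKerEquivOfSurjective f hf
  have h1 := hr H f.ker ⊤ ⟨⟨fun a b => Subtype.ext (e.injective (by
    show e ((a : H ⧸ f.ker) * b) = e ((b : H ⧸ f.ker) * a)
    rw [map_mul, map_mul, hc]))⟩⟩ (fun a _ => e.injective (by rw [map_pow, hp, map_one]))
  rwa [card_top, Nat.card_congr e.toEquiv] at h1

theorem kc_lt (hM : ∀ (p : ℕ) [Fact p.Prime] (V : Type u) [AddCommGroup V] [Module (ZMod p) V] [Finite V]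
    [Nontrivial V], Bd p V) {X : Type u} [Group X] [Finite X] [Nontrivial X] (p : ℕ) [hp : Fact p.Prime]
    (hsolv : IsPSolvable p X) (hcore : pPrimeCore p X = ⊥) (r : ℕ) (hr : SectionalPRankLE p r ↥(pCore p X))
    (T : Subgroup X) (hT : (Nat.card T).Coprime p) : kc T < p ^ r := by
  obtain ⟨V, i1, i2, i3, φ, π, hπ, -, hker⟩ := H450.FratMod.exists_module hsolv hcore
  have hPp : IsPGroup p (pCore p X) := Lib.Cores.pCore_isPGroup p
  have hVr : Nat.card V ≤ p ^ r := by
    have h1 := sec_bound hr (H := ⊤) (π.comp (⊤ : Subgroup ↥(pCore p X)).subtype) (by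
      intro v
      obtain ⟨u, rfl⟩ := hπ v
      exact ⟨⟨u, mem_top u⟩, rfl⟩) (fun a b => mul_comm a b) (fun a => by
      have h2 : (p : ZMod p) • (Multiplicative.toAdd a) = 0 := by
        rw [ZMod.natCast_self, zero_smul]
      rw [Nat.cast_smul_eq_nsmul] at h2
      exact h2)
    exact h1
  have hTp : ∀ x ∈ T, x ∈ pCore p X → x = 1 := by
    intro x hxT hxP
    obtain ⟨k, hk⟩ := hPp ⟨x, hxP⟩
    have h1 : x ^ p ^ k = 1 := congrArg Subtype.val hk
    have h2 : orderOf x ∣ p ^ k := orderOf_dvd_of_pow_eq_one h1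
    have h3 : orderOf x ∣ Nat.card T := by
      rw [← Subgroup.orderOf_mk x hxT]
      exact orderOf_dvd_natCard _
    have h4 : orderOf x ∣ 1 := by
      have h5 : (Nat.card T).Coprime (p ^ k) := hT.pow_right k
      rw [← h5.gcd_eq_one]
      exact Nat.dvd_gcd h3 h2
    exact orderOf_eq_one_iff.1 (Nat.dvd_one.1 h4)
  rcases subsingleton_or_nontrivial V with hV | hV
  · -- `X` is a `p`-group
    have htop : pCore p X = ⊤ := by
      rw [← hker, eq_top_iff]
      intro x _
      rw [MonoidHom.mem_ker]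
      ext v
      exact Subsingleton.elim _ _
    have hT1 : T = ⊥ := by
      rw [eq_bot_iff]
      intro x hx
      exact hTp x hx (htop ▸ mem_top x)
    have hk1 : kc T ≤ 1 := by
      have : Subsingleton T := by rw [hT1]; infer_instance
      have : Subsingleton (ConjClasses T) := by
        refine ⟨fun a b => ?_⟩
        obtain ⟨a, rfl⟩ := ConjClasses.exists_rep a
        obtain ⟨b, rfl⟩ := ConjClasses.exists_rep b
        rw [Subsingleton.elim a b]
      exact Finite.card_le_one_iff_subsingleton.2 this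
    have hnt : Nontrivial (pCore p X) := by
      obtain ⟨x, hx⟩ := exists_ne (1 : X)
      exact ⟨⟨⟨x, htop ▸ mem_top x⟩, 1, fun h => hx (congrArg Subtype.val h)⟩⟩
    obtain ⟨n, hn0, hcard⟩ := (IsPGroup.nontrivial_iff_card hPp).1 hnt
    obtain ⟨z, hz⟩ := exists_prime_orderOf_dvd_card' (G := ↥(pCore p X)) p (by
      rw [hcard]; exact dvd_pow_self p (by omega))
    have hzp : z ^ p = 1 := by
      have h1 := pow_orderOf_eq_one z
      rwa [hz] at h1
    have h1 := sec_bound hr (H := zpowers z) (MonoidHom.id _) Function.surjective_id (by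
      rintro ⟨a, n, rfl⟩ ⟨b, k, rfl⟩
      exact Subtype.ext ((Commute.refl z).zpow_zpow n k).eq) (by
      rintro ⟨a, n, rfl⟩
      apply Subtype.ext
      show (z ^ n) ^ p = 1
      rw [← zpow_natCast, ← zpow_mul, mul_comm, zpow_mul, zpow_natCast, hzp, one_zpow])
    rw [Nat.card_zpowers, hz] at h1
    have h2 := hp.out.two_le
    omega
  · let f : T →* (V ≃ₗ[ZMod p] V) := φ.comp T.subtype
    have hf : Function.Injective f := by
      rw [injective_iff_map_eq_one]
      intro x hx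
      apply Subtype.ext
      refine hTp x x.2 ?_
      rw [← hker]
      exact hx
    let e : T ≃* f.range := MonoidHom.ofInjective hf
    have h1 : ¬ p ∣ Nat.card f.range := by
      rw [← Nat.card_congr e.toEquiv]
      intro h2
      have h3 := Nat.eq_one_of_dvd_coprimes hT h2 dvd_rfl
      exact hp.out.one_lt.ne' h3
    have h2 := (hM p V f.range h1).1
    have hfr : Finite f.range := Finite.of_equiv _ e.toEquiv
    have h3 : kc T ≤ kc f.range := kc_le_of_surj e.symm.toMonoidHom e.symm.surjective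
    have h4 : 0 < Nat.card V := Nat.card_pos
    omega

/-- **S4533 from the linear theorem.** -/
theorem s4533_of (hM : ∀ (p : ℕ) [Fact p.Prime] (V : Type u) [AddCommGroup V] [Module (ZMod p) V] [Finite V]
    [Nontrivial V], Bd p V) {X : Type u} [Group X] [Finite X] [Nontrivial X] (p : ℕ) [hp : Fact p.Prime]
    (hsolv : Cfsg.IsPSolvable p X) (hcore : Cfsg.pPrimeCore p X = ⊥) (r : ℕ)
    (hr : Cfsg.SectionalPRankLE p r ↥(Cfsg.pCore p X)) :
    (∀ T : Subgroup X, (Nat.card T).Coprime p → (∃ m : ℕ, T.index = p ^ m) → Nat.card (ConjClasses T) < p ^ r) ∧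
      Nat.card {C : ConjClasses X // ∃ g : X, ConjClasses.mk g = C ∧ ¬ p ∣ orderOf g} < p ^ r := by
  refine ⟨fun T hT _ => kc_lt hM p hsolv hcore r hr T hT, ?_⟩
  obtain ⟨T, hT, hdom⟩ := H442.HallGen.exists_hall (H442.HallGen.dclass_of_pSolvable p _ X rfl hsolv)
  have hTp : (Nat.card T).Coprime p := by
    rw [Nat.coprime_comm, hp.out.coprime_iff_not_dvd]
    intro h1
    exact hT.card p hp.out h1 rfl
  refine lt_of_le_of_lt ?_ (kc_lt hM p hsolv hcore r hr T hTp)
  have hdom' : ∀ g : X, ¬ p ∣ orderOf g → ∃ x : X, x * g * x⁻¹ ∈ T := by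
    intro g hg
    obtain ⟨x, hx⟩ := hdom (zpowers g) (by
      intro q hq hqd
      rw [Nat.card_zpowers] at hqd
      show q ≠ p
      rintro rfl
      exact hg hqd)
    exact ⟨x, hx ⟨g, mem_zpowers g, rfl⟩⟩
  have hord : ∀ t : T, ¬ p ∣ orderOf (t : X) := by
    intro t h1
    rw [Subgroup.orderOf_coe] at h1
    exact (hp.out.coprime_iff_not_dvd.1 (Nat.coprime_comm.1 hTp)) (h1.trans (orderOf_dvd_natCard t))
  refine Nat.card_le_card_of_surjective (fun c : ConjClasses T =>
    (⟨ConjClasses.map T.subtype c, ?_⟩ : {C : ConjClasses X // ∃ g : X, ConjClasses.mk g = C ∧ ¬ p ∣ orderOf g})) ?_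
  · obtain ⟨t, rfl⟩ := ConjClasses.exists_rep c
    exact ⟨t, rfl, hord t⟩
  · rintro ⟨_, g, rfl, hg⟩
    obtain ⟨x, hx⟩ := hdom' g hg
    refine ⟨ConjClasses.mk ⟨x * g * x⁻¹, hx⟩, Subtype.ext ?_⟩
    show ConjClasses.mk (x * g * x⁻¹) = ConjClasses.mk g
    rw [ConjClasses.mk_eq_mk_iff_isConj]
    exact (isConj_iff.2 ⟨x, rfl⟩).symm

end Cfsg.Agent.H415.KGL.F2
end

-- part: H475/KGV/Apps
section
/-!
# S4533 and S4532 from the k(GV) theorem
-/

set_option autoImplicit false

open Cfsg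

namespace Cfsg.Agent.H475.KGV

universe u

/-- The statement of S4533. -/
theorem s4533 (hM : Cfsg.Agent.H644.KGV.MainKGV.{u}) {X : Type u} [Group X] [Finite X] [Nontrivial X]
    (p : ℕ) [Fact p.Prime]
    (hsolv : Cfsg.IsPSolvable p X) (hcore : Cfsg.pPrimeCore p X = ⊥) (r : ℕ)
    (hr : Cfsg.SectionalPRankLE p r ↥(Cfsg.pCore p X)) :
    (∀ T : Subgroup X, (Nat.card T).Coprime p → (∃ m : ℕ, T.index = p ^ m) →
      Nat.card (ConjClasses T) < p ^ r) ∧
    Nat.card {C : ConjClasses X // ∃ g : X, ConjClasses.mk g = C ∧ ¬ p ∣ orderOf g} < p ^ r :=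
  H415.KGL.F2.s4533_of (fun p _ V _ _ _ _ => bd_of_main hM p V) p hsolv hcore r hr

theorem pRegBound (hM : Cfsg.Agent.H644.KGV.MainKGV.{u}) : PRegBound.{u} :=
  fun _ _ _ _ p _ hsolv hcore r hr => (s4533 hM p hsolv hcore r hr).2

/-- The statement of S4532. -/
theorem s4532 (h : Cfsg.Agent.H644.KGV.MainKGV.{u}) {G : Type u} [Group G] [Finite G] (p : ℕ)
    [Fact p.Prime] (hsolv : Cfsg.IsPSolvable p G) (M : Ideal Cfsg.AlgInt) (hM : Cfsg.IsPModular p M)
    (B : Set (Cfsg.IrrCharacter G)) (hB : Cfsg.IsPBlock M B) (D : Subgroup G)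
    (hD : Cfsg.IsDefectGroup p M B D) (hD1 : D ≠ ⊥) (r : ℕ)
    (hr : Cfsg.SectionalPRankLE p r D) : Cfsg.blockRank p B < p ^ r :=
  s4532_of (pRegBound h) p hsolv M hM B hB D hD hD1 r hr

end Cfsg.Agent.H475.KGV
end
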